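import Mathlib
import Cfsg.Agent.Class.Spec.MaxOrd
import Cfsg.Agent.Class.FG.Linear

/-!
Conjugacy classes of `PGL`, `PGU` through Jordan data; classes of elements of prime order `r ∣ Q - 1`.
-/

set_option autoImplicit false

namespace Cfsg.Agent.Class.Spec

open Polynomial Cfsg Cfsg.Agent.KSG Cfsg.Agent.Class.Wall

section Comb

variable {M : Type*} [CommGroup M] {p n r : ℕ} {Q : ℤ}

/-- Semisimple data. -/
def ss (m : Multiset M) : Multiset (M × ℕ) := m.map fun α => (α, 1)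

omit [CommGroup M] in
theorem ss_injective : Function.Injective (ss : Multiset M → _) :=
  Multiset.map_injective fun _ _ h => congrArg Prod.fst h

theorem sc_ss (c : M) (m : Multiset M) : sc c (ss m) = ss (m.map (c * ·)) := by simp [sc, ss]

theorem map_tw_ss (R : ℤ) (m : Multiset M) : (ss m).map (tw R) = ss (m.map (· ^ R)) := by
  simp [tw, ss]

theorem valid_ss {m : Multiset M} : Valid Q n (ss m) ↔ m.card = n ∧ m.map (· ^ Q) = m := by
  have h : ((ss m).map Prod.snd).sum = m.card := by simp [ss]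
  refine ⟨fun h1 => ⟨h ▸ h1.sum, ss_injective ((map_tw_ss Q m).symm.trans h1.inv)⟩,
    fun h1 => ⟨fun x hx => ?_, h.trans h1.1, by rw [map_tw_ss, h1.2]⟩⟩
  obtain ⟨α, -, rfl⟩ := Multiset.mem_map.1 hx
  exact one_pos

theorem KB_ss {m : Multiset M} {N : ℕ} {c : M} : KB p (ss m) N c ↔ ∀ α ∈ m, α ^ N = c := by
  simp [KB, ss]

theorem jdet_ss (m : Multiset M) : jdet (ss m) = m.prod := by simp [jdet, ss]

theorem PK.eq_ss {J : Multiset (M × ℕ)} {N : ℕ} (h : PK p J N) (hp : 1 < p) (hN : ¬ p ∣ N)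
    (hJ : ∀ x ∈ J, 0 < x.2) : J = ss (J.map Prod.fst) := by
  obtain ⟨c, hc⟩ := h
  rw [ss, Multiset.map_map]
  refine (Multiset.map_id J).symm.trans (Multiset.map_congr rfl fun x hx => Prod.ext rfl ?_)
  by_contra e
  exact hN ((dvd_pow_self p (Nat.clog_pos hp (by have := hJ x hx; simp at e; omega)).ne').trans
    (hc x hx).2)

/-- The coset of `μ` through `α`. -/
noncomputable def cos (μ : Subgroup M) [Fintype μ] (α : M) : Multiset M :=
  Finset.univ.val.map fun u : μ => α * u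

variable {μ : Subgroup M} [Fintype μ]

theorem mem_cos {α β : M} : β ∈ cos μ α ↔ α⁻¹ * β ∈ μ := by
  simp only [cos, Multiset.mem_map, Finset.mem_val, Finset.mem_univ, true_and]
  exact ⟨by rintro ⟨u, rfl⟩; simp, fun h => ⟨⟨_, h⟩, by simp⟩⟩

theorem nodup_cos (α : M) : (cos μ α).Nodup :=
  Finset.univ.nodup.map fun _ _ h => Subtype.ext (mul_left_cancel h)

theorem card_cos (α : M) : (cos μ α).card = Nat.card μ := by simp [cos]

theorem map_mul_cos (c α : M) : (cos μ α).map (c * ·) = cos μ (c * α) := by simp [cos, mul_assoc]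

theorem cos_mul {u : M} (hu : u ∈ μ) (α : M) : cos μ (u * α) = cos μ α :=
  (Multiset.Nodup.ext (nodup_cos _) (nodup_cos _)).2 fun β => by
    rw [mem_cos, mem_cos, mul_inv, mul_assoc, μ.mul_mem_cancel_left (μ.inv_mem hu)]

theorem eq_nsmul_cos (hr : (Nat.card μ).Prime) {m : Multiset M} {α u : M}
    (hm : ∀ β ∈ m, α⁻¹ * β ∈ μ) (hu : u ∈ μ) (h1 : u ≠ 1) (h : m.map (u * ·) = m) :
    ∃ k : ℕ, m = k • cos μ α := by
  classical
  have h2 : ∀ (i : ℕ) β, m.count (u ^ i * β) = m.count β := fun i β => by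
    induction i with
    | zero => simp
    | succ i ih =>
      rw [pow_succ', mul_assoc, ← ih]
      conv_lhs => rw [← h]
      exact Multiset.count_map_eq_count' _ _ (mul_right_injective u) _
  have := Fact.mk hr
  refine ⟨m.count α, Multiset.ext.2 fun β => ?_⟩
  rw [Multiset.count_nsmul]
  by_cases hβ : α⁻¹ * β ∈ μ
  · obtain ⟨i, hi⟩ := mem_powers_of_prime_card (G := μ) rfl (g := ⟨u, hu⟩) (g' := ⟨_, hβ⟩)
      fun e => h1 (congrArg Subtype.val e)
    have : β = u ^ i * α := by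
      rw [show u ^ i = α⁻¹ * β from congrArg Subtype.val hi, mul_comm, mul_inv_cancel_left]
    rw [Multiset.count_eq_one_of_mem (nodup_cos _) (mem_cos.2 hβ), mul_one, this, h2]
  · rw [Multiset.count_eq_zero_of_notMem fun e => hβ (hm β e),
      Multiset.count_eq_zero_of_notMem fun e => hβ (mem_cos.1 e), mul_zero]

/-- The classes of `G` are the valid data modulo scaling. -/
structure PCl (G : Type*) [Group G] (p : ℕ) (Q : ℤ) (n : ℕ) (cl : Multiset (M × ℕ) → ConjClasses G) :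
    Prop where
  surj : ∀ g : G, ∃ J, Valid Q n J ∧ cl J = ConjClasses.mk g
  eq_iff : ∀ J J', Valid Q n J → Valid Q n J' → (cl J = cl J' ↔ ∃ c, c ^ Q = c ∧ J' = sc c J)
  pow : ∀ J g N, Valid Q n J → cl J = ConjClasses.mk g → (g ^ N = 1 ↔ PK p J N)

theorem PCl.card_order {G : Type*} [Group G] {cl : Multiset (M × ℕ) → ConjClasses G}
    (h : PCl G p Q n cl) (hQ : IsQ M p Q) (hn : 0 < n) (hr : r.Prime) (hrQ : (r : ℤ) ∣ Q - 1) :
    Nat.card {C : ConjClasses G // ∃ g : G, ConjClasses.mk g = C ∧ orderOf g = r} =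
      (Nat.choose (n + r - 1) (r - 1) - r - (if r ∣ n then 1 else 0)) / r +
        r * (if r ∣ n then 1 else 0) := by
  classical
  have := Fact.mk hr
  have hpQ : ¬ (p : ℤ) ∣ Q - 1 := by simpa using hQ.not_dvd one_pos
  have hpr : ¬ p ∣ r := fun e => hpQ ((Int.natCast_dvd_natCast.2 e).trans hrQ)
  obtain ⟨γ, hγ⟩ := hQ.ex (r * (Q - 1).natAbs) fun e =>
    (hQ.prime.dvd_mul.1 e).elim hpr fun e => hpQ (Int.natCast_dvd.2 e)
  have hγ0 : 0 < orderOf γ := hγ ▸ Nat.mul_pos hr.pos hQ.sub_one_pos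
  obtain ⟨ζ, hζ⟩ := hQ.ex r hpr
  let μ := Subgroup.zpowers ζ
  have hμ : Nat.card μ = r := by rw [Nat.card_zpowers, hζ]
  have : Finite μ := Nat.finite_of_card_ne_zero (hμ ▸ hr.ne_zero)
  let _ := Fintype.ofFinite μ
  have mem : ∀ β, β ∈ μ ↔ β ^ r = 1 := fun β => ⟨fun h => hζ ▸ orderOf_dvd_iff_pow_eq_one.1
    (orderOf_dvd_of_mem_zpowers h), fun h => by
      obtain ⟨k, rfl⟩ := hQ.cyc ζ β (hζ ▸ hr.pos) (hζ ▸ h)
      exact Subgroup.npow_mem_zpowers _ _⟩
  have fix : ∀ β ∈ μ, β ^ Q = β := fun β h => zpow_eq_self_iff.2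
    (zpow_eq_one_of_dvd (by exact_mod_cast (mem β).1 h) hrQ)
  have hζ1 : ζ ≠ 1 := fun e => hr.one_lt.ne' (by rw [← hζ, e, orderOf_one])
  have hζμ : ζ ∈ μ := Subgroup.mem_zpowers ζ
  have ord : ∀ m : Multiset M, Valid Q n (ss m) → (∃ c, ∀ α ∈ m, α ^ r = c) →
      (¬ ∃ c, ∀ α ∈ m, α = c) → ∃ g : G, ConjClasses.mk g = cl (ss m) ∧ orderOf g = r :=
    fun m h1 h2 h3 => by
      obtain ⟨g, hg⟩ := ConjClasses.mk_surjective (cl (ss m))
      refine ⟨g, hg, orderOf_eq_prime ((h.pow _ g r h1 hg.symm).2 (h2.imp fun c => KB_ss.2))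
        fun e => h3 ?_⟩
      exact ((h.pow _ g 1 h1 hg.symm).1 (by simp [e])).imp fun c hc => by simpa using KB_ss.1 hc
  have shift : ∀ α c (m : Multiset M), c ^ Q = c → α ^ r = c → (∀ β ∈ m, β ^ r = c) →
      α ^ (Q - 1) ∈ μ ∧ m.map (· ^ Q) = m.map (α ^ (Q - 1) * ·) := fun α c m h1 h2 h3 => by
    refine ⟨(mem _).2 ?_, Multiset.map_congr rfl fun β hβ => ?_⟩
    · rw [← zpow_natCast, ← zpow_mul, mul_comm, zpow_mul, zpow_natCast, h2, zpow_eq_self_iff.1 h1]
    · have := fix (α⁻¹ * β) ((mem _).2 (by rw [mul_pow, inv_pow, h2, h3 β hβ, inv_mul_cancel]))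
      rw [mul_zpow, inv_zpow, inv_mul_eq_iff_eq_mul] at this
      rw [this, zpow_sub_one, mul_assoc]
  have hcos : ∀ α, ∀ β ∈ (n / r) • cos μ α, β ^ r = α ^ r := fun α β hβ => by
    have := (mem _).1 (mem_cos.1 (Multiset.mem_of_mem_nsmul hβ))
    rwa [mul_pow, inv_pow, inv_mul_eq_one, eq_comm] at this
  have hγk : ∀ k : ℕ, ((γ ^ k) ^ r) ^ Q = (γ ^ k) ^ r := fun k => by
    rw [zpow_eq_self_iff, ← pow_mul, ← zpow_natCast, ← zpow_mul, ← orderOf_dvd_iff_zpow_eq_one, hγ]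
    push_cast
    exact mul_dvd_mul (dvd_mul_left _ _) (abs_dvd_self _)
  have vB : r ∣ n → ∀ k : ℕ, Valid Q n (ss ((n / r) • cos μ (γ ^ k))) := fun hd k => by
    obtain ⟨h1, h2⟩ := shift _ _ _ (hγk k) rfl (hcos (γ ^ k))
    refine valid_ss.2 ⟨by rw [Multiset.card_nsmul, card_cos, hμ, Nat.div_mul_cancel hd], ?_⟩
    rw [h2, Multiset.map_nsmul, map_mul_cos, cos_mul h1]
  let f : Sym μ n → Multiset M := fun s => (s : Multiset μ).map Subtype.val
  have finj : Function.Injective f := fun s t e =>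
    Sym.coe_injective (Multiset.map_injective Subtype.val_injective e)
  have fmem : ∀ s, ∀ β ∈ f s, β ∈ μ := fun s β hβ => by
    obtain ⟨u, -, rfl⟩ := Multiset.mem_map.1 hβ
    exact u.2
  have fmap : ∀ (u : μ) s, f (s.map (u * ·)) = (f s).map ((u : M) * ·) := fun u s => by
    simp [f]
  have vA : ∀ s, Valid Q n (ss (f s)) := fun s => valid_ss.2 ⟨by simp [f],
    (Multiset.map_congr rfl fun β hβ => fix β (fmem s β hβ)).trans (Multiset.map_id _)⟩
  let T1 : Finset (Sym μ n) := Finset.univ.image (Sym.replicate n)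
  let T2 : Finset (Sym μ n) := Finset.univ.filter fun s => ∃ k : ℕ, f s = k • cos μ 1
  have hT1 : ∀ s, s ∈ T1 ↔ ∃ c, ∀ α ∈ f s, α = c := fun s => by
    simp only [T1, Finset.mem_image, Finset.mem_univ, true_and]
    refine ⟨by rintro ⟨u, rfl⟩; exact ⟨u, by simp [f]⟩, fun ⟨c, hc⟩ => ?_⟩
    obtain ⟨u, hu⟩ := Multiset.card_pos_iff_exists_mem.1 (s.2.symm ▸ hn : 0 < (s : Multiset μ).card)
    exact ⟨u, (Sym.eq_replicate.2 fun v hv => Subtype.ext ((hc _ (Multiset.mem_map_of_mem _ hv)).trans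
      (hc _ (Multiset.mem_map_of_mem _ hu)).symm)).symm⟩
  have ncos : ∀ (k : ℕ) α, 0 < k → ¬ ∃ c, ∀ β ∈ k • cos μ α, β = c := fun k α hk ⟨c, hc⟩ => by
    have e1 := hc α ((Multiset.mem_nsmul_of_ne_zero hk.ne').2 (mem_cos.2 (by simp)))
    have e2 := hc (α * ζ) ((Multiset.mem_nsmul_of_ne_zero hk.ne').2 (mem_cos.2 (by simpa)))
    exact hζ1 (by simpa [e1] using e2)
  have kcos : ∀ (k : ℕ) α, (k • cos μ α).card = n → r ∣ n ∧ k = n / r ∧ 0 < k := fun k α e => by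
    rw [Multiset.card_nsmul, card_cos, hμ] at e
    subst e
    exact ⟨dvd_mul_left _ _, (Nat.mul_div_cancel _ hr.pos).symm, Nat.pos_of_mul_pos_right hn⟩
  have cT2 : T2.card = if r ∣ n then 1 else 0 := by
    split_ifs with hd
    · refine Finset.card_eq_one.2 ⟨⟨(n / r) • Finset.univ.val, by
        simp [← Nat.card_eq_fintype_card, hμ, Nat.div_mul_cancel hd]⟩, Finset.eq_singleton_iff_unique_mem.2
        ⟨Finset.mem_filter.2 ⟨Finset.mem_univ _, n / r, by simp [f, cos, Multiset.map_nsmul]⟩,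
          fun s hs => finj ?_⟩⟩
      obtain ⟨k, hk⟩ := (Finset.mem_filter.1 hs).2
      rw [hk, (kcos k 1 (by simp [← hk, f])).2.1]
      simp [f, cos, Multiset.map_nsmul]
    · refine Finset.card_eq_zero.2 (Finset.filter_eq_empty_iff.2 fun s _ ⟨k, hk⟩ => hd ?_)
      exact (kcos k 1 (by simp [← hk, f])).1
  let T := Finset.univ \ (T1 ∪ T2)
  have hT : ∀ s, s ∈ T ↔ (¬ ∃ c, ∀ α ∈ f s, α = c) ∧ ¬ ∃ k : ℕ, f s = k • cos μ 1 := fun s => by
    simp only [T, Finset.mem_sdiff, Finset.mem_univ, true_and, Finset.mem_union, not_or, hT1, T2,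
      Finset.mem_filter]
  have cT : T.card = Nat.choose (n + r - 1) (r - 1) - r - (if r ∣ n then 1 else 0) := by
    rw [Finset.card_univ_sdiff, Finset.card_union_of_disjoint, cT2, Finset.card_image_of_injective _
      (Sym.replicate_right_injective hn.ne'), Sym.card_sym_eq_choose, Finset.card_univ,
      ← Nat.card_eq_fintype_card, hμ, Nat.sub_add_eq, add_comm r,
      Nat.choose_symm_of_eq_add (show n + r - 1 = n + (r - 1) by have := hr.pos; omega)]
    refine Finset.disjoint_left.2 fun s h1 h2 => ?_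
    obtain ⟨k, hk⟩ := (Finset.mem_filter.1 h2).2
    exact ncos k 1 (kcos k 1 (by simp [← hk, f])).2.2 (hk ▸ (hT1 s).1 h1)
  have free : ∀ s ∈ T, ∀ u ∈ μ, (f s).map (u * ·) = f s → u = 1 := fun s hs u hu e => by
    by_contra e1
    exact ((hT s).1 hs).2 (eq_nsmul_cos (hμ ▸ hr) (by simpa using fmem s) hu e1 e)
  let A := T.image fun s => cl (ss (f s))
  have cA : T.card = r * A.card := by
    rw [Finset.card_eq_sum_card_image (fun s => cl (ss (f s))), mul_comm, ← smul_eq_mul,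
      ← Finset.sum_const]
    refine Finset.sum_congr rfl fun C hC => ?_
    obtain ⟨s, hs, rfl⟩ := Finset.mem_image.1 hC
    rw [← hμ, Nat.card_eq_fintype_card, ← Finset.card_univ, eq_comm]
    refine Finset.card_bij (fun u _ => s.map (u * ·)) (fun u _ => ?_) (fun u _ v _ e => ?_)
      fun t ht => ?_
    · refine Finset.mem_filter.2 ⟨(hT _).2 ⟨fun ⟨c, hc⟩ => ((hT s).1 hs).1 ⟨(u : M)⁻¹ * c, fun α hα => ?_⟩,
        fun ⟨k, hk⟩ => ((hT s).1 hs).2 ⟨k, ?_⟩⟩,
        ((h.eq_iff _ _ (vA _) (vA _)).2 ⟨u, fix _ u.2, by rw [sc_ss, fmap]⟩).symm⟩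
      · rw [← hc (u * α) (fmap u s ▸ Multiset.mem_map_of_mem _ hα), inv_mul_cancel_left]
      · have := congrArg (Multiset.map ((u : M)⁻¹ * ·)) hk
        rwa [fmap, Multiset.map_map, Multiset.map_nsmul, map_mul_cos, cos_mul (μ.inv_mem u.2),
          show (((u : M)⁻¹ * ·) ∘ ((u : M) * ·)) = id by ext; simp, Multiset.map_id] at this
    · have := congrArg (fun s => (f s).map ((v : M)⁻¹ * ·)) e
      simp only [fmap, Multiset.map_map, Function.comp_def, inv_mul_cancel, one_mul, Multiset.map_id',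
        ← mul_assoc] at this
      exact Subtype.ext (inv_mul_eq_one.1 (free s hs _ (μ.mul_mem (μ.inv_mem v.2) u.2) this)).symm
    · obtain ⟨c, -, hc⟩ := (h.eq_iff _ _ (vA _) (vA _)).1 (Finset.mem_filter.1 ht).2.symm
      rw [sc_ss] at hc
      replace hc := ss_injective hc
      obtain ⟨α, hα⟩ := Multiset.card_pos_iff_exists_mem.1 (show 0 < (f s).card by simpa [f])
      have := fmem t _ (hc ▸ Multiset.mem_map_of_mem _ hα)
      rw [μ.mul_mem_cancel_right (fmem s α hα)] at this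
      exact ⟨⟨c, this⟩, Finset.mem_univ _, finj (by rw [fmap, hc])⟩
  let B := (if r ∣ n then Finset.range r else ∅).image fun k => cl (ss ((n / r) • cos μ (γ ^ k)))
  have cB : B.card = r * (if r ∣ n then 1 else 0) := by
    by_cases hd : r ∣ n
    · simp only [B, if_pos hd, mul_one]
      rw [Finset.card_image_of_injOn, Finset.card_range]
      intro k hk l hl e
      obtain ⟨c, h1, h2⟩ := (h.eq_iff _ _ (vB hd k) (vB hd l)).1 e
      rw [sc_ss, Multiset.map_nsmul, map_mul_cos] at h2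
      have h3 : γ ^ l ∈ (n / r) • cos μ (c * γ ^ k) := ss_injective h2 ▸
        (Multiset.mem_nsmul_of_ne_zero (Nat.div_pos (Nat.le_of_dvd hn hd) hr.pos).ne').2
          (mem_cos.2 (by simp))
      have h4 := zpow_eq_self_iff.1 (fix _ (mem_cos.1 (Multiset.mem_of_mem_nsmul h3)))
      rw [mul_inv, mul_assoc, mul_zpow, inv_zpow, zpow_eq_self_iff.1 h1, inv_one, one_mul,
        ← zpow_natCast, ← zpow_natCast, ← zpow_neg, ← zpow_add, ← zpow_mul,
        ← orderOf_dvd_iff_zpow_eq_one, hγ, Nat.cast_mul, ← Int.natAbs_dvd_natAbs, Int.natAbs_mul,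
        Int.natAbs_mul, Int.natAbs_natCast, Int.natAbs_natCast,
        Nat.mul_dvd_mul_iff_right hQ.sub_one_pos] at h4
      have := Nat.eq_zero_of_dvd_of_lt h4
      simp only [Finset.coe_range, Set.mem_Iio] at hk hl
      omega
    · simp [B, hd]
  have hB : ∀ C, C ∈ B ↔ r ∣ n ∧ ∃ k < r, cl (ss ((n / r) • cos μ (γ ^ k))) = C := fun C => by
    by_cases hd : r ∣ n <;> simp [B, hd]
  rw [← cT, cA, Nat.mul_div_cancel_left _ hr.pos, ← cB, ← Finset.card_union_of_disjoint,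
    ← Nat.card_eq_finsetCard]
  · refine Nat.card_congr (Equiv.subtypeEquivRight fun C => ⟨?_, fun hC => ?_⟩)
    · rintro ⟨g, rfl, hg⟩
      obtain ⟨J, h1, h2⟩ := h.surj g
      have h3 := (h.pow J g r h1 h2).1 (hg ▸ pow_orderOf_eq_one g)
      obtain ⟨m, rfl⟩ : ∃ m, J = ss m := ⟨_, h3.eq_ss hQ.prime.one_lt hpr h1.pos⟩
      obtain ⟨c, hc⟩ := h3
      have h4 := hc.fixed h1.inv (h1.ne_zero hn)
      rw [KB_ss] at hc
      obtain ⟨h5, h6⟩ := valid_ss.1 h1
      obtain ⟨α, hα⟩ := Multiset.card_pos_iff_exists_mem.1 (h5 ▸ hn)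
      have h7 : ∀ β ∈ m, α⁻¹ * β ∈ μ := fun β hβ =>
        (mem _).2 (by rw [mul_pow, inv_pow, hc α hα, hc β hβ, inv_mul_cancel])
      rw [Finset.mem_union, ← h2]
      by_cases h8 : ∃ k : ℕ, m = k • cos μ α
      · obtain ⟨k, rfl⟩ := h8
        obtain ⟨hd, rfl, -⟩ := kcos k α h5
        obtain ⟨k, rfl⟩ := hQ.cyc γ α hγ0 (by
          rw [hγ, pow_mul, hc α hα, ← zpow_natCast]
          exact zpow_eq_one_of_dvd (zpow_eq_self_iff.1 h4) (Int.dvd_natAbs.2 dvd_rfl))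
        refine Or.inr ((hB _).2 ⟨hd, k % r, Nat.mod_lt _ hr.pos,
          (h.eq_iff _ _ (vB hd _) h1).2 ⟨_, hγk (k / r), ?_⟩⟩)
        rw [sc_ss, Multiset.map_nsmul, map_mul_cos, ← pow_mul, ← pow_add, Nat.div_add_mod']
      obtain ⟨h9, h10⟩ := shift α c m h4 (hc α hα) hc
      have h11 : α ^ (Q - 1) = 1 := by
        by_contra e
        exact h8 (eq_nsmul_cos (hμ ▸ hr) h7 h9 e (h10.symm.trans h6))
      let s : Sym μ n := ⟨m.pmap (fun β h => ⟨α⁻¹ * β, h⟩) h7, by simpa⟩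
      have h12 : m = (f s).map (α * ·) := by simp [f, s, Multiset.map_pmap, Multiset.pmap_eq_map]
      refine Or.inl (Finset.mem_image.2 ⟨s, (hT s).2 ⟨fun ⟨d, hd⟩ => ?_, fun ⟨k, hk⟩ => h8 ⟨k, ?_⟩⟩,
        (h.eq_iff _ _ (vA s) h1).2 ⟨α, zpow_eq_self_iff.2 h11, by rw [sc_ss, ← h12]⟩⟩)
      · refine hr.one_lt.ne' (hg.symm.trans (orderOf_eq_one_iff.2 ?_))
        rw [← pow_one g, h.pow _ g 1 h1 h2]
        refine ⟨α * d, KB_ss.2 fun β hβ => ?_⟩
        rw [h12] at hβ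
        obtain ⟨β', hβ', rfl⟩ := Multiset.mem_map.1 hβ
        rw [pow_one, hd β' hβ']
      · rw [h12, hk, Multiset.map_nsmul, map_mul_cos, mul_one]
    · rcases Finset.mem_union.1 hC with hC | hC
      · obtain ⟨s, hs, rfl⟩ := Finset.mem_image.1 hC
        exact ord _ (vA s) ⟨1, fun α hα => (mem α).1 (fmem s α hα)⟩ ((hT s).1 hs).1
      · obtain ⟨hd, k, -, rfl⟩ := (hB C).1 hC
        exact ord _ (vB hd k) ⟨_, hcos _⟩ (ncos _ _ (Nat.div_pos (Nat.le_of_dvd hn hd) hr.pos))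
  · refine Finset.disjoint_left.2 fun C h1 h2 => ?_
    obtain ⟨s, hs, rfl⟩ := Finset.mem_image.1 h1
    obtain ⟨hd, k, -, h2⟩ := (hB _).1 h2
    obtain ⟨c, -, hc⟩ := (h.eq_iff _ _ (vB hd k) (vA s)).1 h2
    rw [sc_ss, Multiset.map_nsmul, map_mul_cos] at hc
    refine hζ1 (free s hs ζ hζμ ?_)
    rw [ss_injective hc, Multiset.map_nsmul, map_mul_cos, cos_mul hζμ]

end Comb

variable {F K : Type*} [Field F] [Field K] [Algebra F K] [IsAlgClosed K]
  {ι : Type*} [Fintype ι] [DecidableEq ι]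

omit [IsAlgClosed K] in
theorem jm_smul (z : Fˣ) {A : Matrix ι ι F} (hA : IsUnit A) :
    jm K ((z : F) • A) = sc (Units.map (algebraMap F K : F →* K) z) (jm K A) := by
  rw [jm, mdiv, map_smul, FG.elemDiv_smul, jm, jd, jd, Multiset.bind_map, sc, Multiset.map_bind]
  refine Multiset.bind_congr fun b hb => ?_
  have h1 : uroots K (FG.scaleEquiv z b) =
      (uroots K b).map (Units.map (algebraMap F K : F →* K) z * ·) := by
    refine uroots_eq ?_
    have hm := (isPP_of_mem_mdiv hb).monic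
    rw [FG.scaleEquiv_apply, aroots_def, Polynomial.map_scaleRoots _ _ _ (by simp [hm]),
      roots_scaleRoots _ ((_root_.map_ne_zero _).2 z.ne_zero).isUnit, ← aroots_def,
      ← map_uroots (coeff_ne_of_mem_mdiv hA b hb), Multiset.map_map, Multiset.map_map]
    rfl
  rw [h1, dc_map (mul_right_injective _)]
  rfl

variable [Fintype F] [Algebra.IsAlgebraic F K]

theorem jm_eq_iff {A B : Matrix ι ι F} (hA : IsUnit A) (hB : IsUnit B) :
    jm K A = jm K B ↔ mdiv A = mdiv B :=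
  ⟨jd_injective (fun _ => isPP_of_mem_mdiv) (coeff_ne_of_mem_mdiv hA) (fun _ => isPP_of_mem_mdiv)
    (coeff_ne_of_mem_mdiv hB), congrArg _⟩

theorem isConj_quot_center_iff {G : Type*} [Group G] (a b : G) :
    IsConj (a : G ⧸ Subgroup.center G) b ↔ ∃ z ∈ Subgroup.center G, IsConj (z * a) b := by
  simp only [isConj_iff]
  refine ⟨fun ⟨c, hc⟩ => ?_, fun ⟨z, hz, c, hc⟩ => ⟨c, ?_⟩⟩
  · obtain ⟨c, rfl⟩ := QuotientGroup.mk_surjective c
    have h1 : (c * a * c⁻¹)⁻¹ * b ∈ Subgroup.center G := QuotientGroup.eq.1 hc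
    refine ⟨_, h1, c, ?_⟩
    rw [← mul_assoc, Subgroup.mem_center_iff.1 h1, mul_assoc _ c, mul_assoc _ _ c⁻¹,
      ← Subgroup.mem_center_iff.1 h1, mul_inv_cancel_left]
  · rw [← hc, QuotientGroup.mk_mul, QuotientGroup.mk_mul, QuotientGroup.mk_mul,
      (QuotientGroup.eq_one_iff z).2 hz, one_mul]
    rfl

theorem exists_PCl {H : Type*} [Group H] {p n : ℕ} {Q : ℤ} {M : Type*} [CommGroup M]
    (Φ : H → Multiset (M × ℕ)) (h1 : ∀ a, Valid Q n (Φ a)) (h2 : ∀ J, Valid Q n J → ∃ a, Φ a = J)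
    (h3 : ∀ a b, IsConj a b ↔ Φ a = Φ b)
    (h4 : ∀ z ∈ Subgroup.center H, ∃ c, c ^ Q = c ∧ ∀ a, Φ (z * a) = sc c (Φ a))
    (h5 : ∀ c, c ^ Q = c → ∃ z ∈ Subgroup.center H, ∀ a, Φ (z * a) = sc c (Φ a))
    (h6 : ∀ (a : H) N, a ^ N ∈ Subgroup.center H ↔ PK p (Φ a) N) :
    ∃ cl : Multiset (M × ℕ) → _, PCl (H ⧸ Subgroup.center H) p Q n cl := by
  choose! s hs using h2
  refine ⟨fun J => ConjClasses.mk (s J : H ⧸ Subgroup.center H), fun g => ?_, fun J J' hJ hJ' => ?_,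
    fun J g N hJ e => ?_⟩
  · obtain ⟨a, rfl⟩ := QuotientGroup.mk_surjective g
    exact ⟨_, h1 a, ConjClasses.mk_eq_mk_iff_isConj.2
      ((QuotientGroup.mk' _).map_isConj ((h3 _ _).2 (hs _ (h1 a))))⟩
  · rw [ConjClasses.mk_eq_mk_iff_isConj, isConj_quot_center_iff]
    refine ⟨fun ⟨z, hz, e⟩ => ?_, fun ⟨c, hc, e⟩ => ?_⟩
    · obtain ⟨c, hc, h⟩ := h4 z hz
      exact ⟨c, hc, by rw [← hs J hJ, ← h, (h3 _ _).1 e, hs J' hJ']⟩
    · obtain ⟨z, hz, h⟩ := h5 c hc
      exact ⟨z, hz, (h3 _ _).2 (by rw [h, hs J hJ, hs J' hJ', e])⟩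
  · obtain ⟨c, rfl⟩ := isConj_iff.1 (ConjClasses.mk_eq_mk_iff_isConj.1 e)
    rw [conj_pow, conj_eq_one_iff, ← QuotientGroup.mk_pow, QuotientGroup.eq_one_iff, h6, hs J hJ]

variable (F K) (p : ℕ) (hp : p.Prime) [CharP K p]
include hp

theorem exists_PCl_PGL (n : ℕ) : ∃ cl : Multiset (Kˣ × ℕ) → _,
    PCl (GL (Fin n) F ⧸ Subgroup.center (GL (Fin n) F)) p (Fintype.card F) n cl := by
  refine exists_PCl (fun A => jm K A.1) (fun A => by simpa using valid_jm (K := K) A.isUnit)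
    (fun J hJ => exists_GL_jm (by simpa using hJ))
    (fun A B => by rw [isConj_GL_iff_mdiv, jm_eq_iff A.isUnit B.isUnit]) (fun z hz => ?_)
    (fun c hc => ?_) fun A N => ?_
  · rw [Matrix.GeneralLinearGroup.center_eq_range_scalar] at hz
    obtain ⟨z, rfl⟩ := hz
    refine ⟨_, Units.ext ?_, fun A => (congrArg _ ?_).trans (jm_smul z A.isUnit)⟩
    · simp [← map_pow, FiniteField.pow_card]
    · simp [Matrix.smul_eq_diagonal_mul]
  · obtain ⟨d, hd⟩ := Dickson.mem_range_of_pow_card (F := F) (t := (c : K))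
      (by simpa using congrArg Units.val hc)
    have h0 : d ≠ 0 := by rintro rfl; exact c.ne_zero (by simpa using hd.symm)
    refine ⟨_, scalar_mem_center' (Units.mk0 d h0), fun A => (congrArg _ ?_).trans
      ((jm_smul (Units.mk0 d h0) A.isUnit).trans (congrArg (sc · _) (Units.ext hd)))⟩
    simp [Matrix.smul_eq_diagonal_mul]
  · rw [← exists_smul_iff_PK p hp A.isUnit,
      Matrix.GeneralLinearGroup.mem_center_iff_val_mem_range_scalar]
    simp [Matrix.smul_one_eq_diagonal, eq_comm]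
where
  scalar_mem_center' (c : Fˣ) :
      Matrix.GeneralLinearGroup.scalar (Fin n) c ∈ Subgroup.center (GL (Fin n) F) := by
    rw [Matrix.GeneralLinearGroup.center_eq_range_scalar]; exact ⟨c, rfl⟩

theorem exists_PCl_PGU (n q : ℕ) [hU : U.UF F q] : ∃ cl : Multiset (Kˣ × ℕ) → _,
    PCl (GU n F q ⧸ Subgroup.center (GU n F q)) p (-q) n cl := by
  refine exists_PCl (fun A => jm K A.1.1) valid_jm_GU (fun J hJ => exists_GU_jm hJ)
    (fun A B => by rw [GU_isConj_iff_mdiv, jm_eq_iff A.1.isUnit B.1.isUnit]) (fun z hz => ?_)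
    (fun c hc => ?_) fun A N => ?_
  · obtain ⟨e, h1, h2⟩ := (S0783.mem_center_GU _).1 hz
    refine ⟨_, ?_, fun A => (congrArg _ ?_).trans
      (jm_smul (Units.mk0 e (left_ne_zero_of_mul_eq_one h1)) A.1.isUnit)⟩
    · rw [zpow_neg, inv_eq_iff_mul_eq_one]
      refine Units.ext ?_
      simpa [U.conj_apply, mul_comm] using congrArg (algebraMap F K) h1
    · simp [h2]
  · obtain ⟨d, hd⟩ := Dickson.mem_range_of_pow_card (F := F) (t := (c : K)) (by
      have : c ^ ((-q : ℤ) * -q) = c := by rw [zpow_mul, hc, hc]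
      rw [neg_mul_neg, ← Nat.cast_mul, ← sq, ← hU.card_eq, Nat.card_eq_fintype_card] at this
      simpa using congrArg Units.val this)
    have h0 : d ≠ 0 := by rintro rfl; exact c.ne_zero (by simpa using hd.symm)
    have h1 : d * U.conj F q d = 1 := (algebraMap F K).injective (by
      rw [zpow_neg, inv_eq_iff_mul_eq_one] at hc
      simpa [U.conj_apply, hd, mul_comm] using congrArg Units.val hc)
    obtain ⟨z, hz⟩ : ∃ z : GU n F q, z.1.1 = d • 1 := ⟨U.mkGU _ (U.pres_scalar h1), rfl⟩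
    refine ⟨z, (S0783.mem_center_GU _).2 ⟨d, h1, hz⟩, fun A => (congrArg _ ?_).trans
      ((jm_smul (Units.mk0 d h0) A.1.isUnit).trans (congrArg (sc · _) (Units.ext hd)))⟩
    simp [hz]
  · rw [← exists_smul_iff_PK p hp A.1.isUnit]
    refine ⟨fun h => ((S0783.mem_center_GU _).1 h).imp fun c hc => hc.2, fun ⟨c, hc⟩ =>
      Subgroup.mem_center_iff.2 fun x => Subtype.ext (Units.ext ?_)⟩
    simp [hc]

end Cfsg.Agent.Class.Spec
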